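import Cfsg.Agent.H206.ZPslBase

/-!
# Non-conjugate `p`-singular elements of `PSL_4(q)` and `PSL_5(q)`: explicit matrices (S4895, task 800)
-/

set_option autoImplicit false

namespace Cfsg.Agent.H206.ZPsl

open Matrix Polynomial

variable {F : Type*} [Field F] {n : ℕ}

/-! ### more on `Sim` -/

theorem Sim.ne_zero {z : F} (hn : n ≠ 0) (h : z ^ n = 1) : z ≠ 0 := by
  rintro rfl
  rw [zero_pow hn] at h
  exact zero_ne_one h

theorem Sim.symm {a b : Matrix (Fin n) (Fin n) F} (hn : n ≠ 0) (h : Sim a b) : Sim b a := by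
  obtain ⟨z, u, hz, rfl⟩ := h
  have hz0 := Sim.ne_zero hn hz
  refine ⟨z⁻¹, u⁻¹, by rw [inv_pow, hz, inv_one], ?_⟩
  rw [mul_smul_comm, smul_mul_assoc, smul_smul, inv_mul_cancel₀ hz0, one_smul, inv_inv, ← mul_assoc, ← mul_assoc,
    Units.inv_mul, one_mul, mul_assoc, Units.inv_mul, mul_one]

theorem Sim.trace_eq {a b : Matrix (Fin n) (Fin n) F} (h : Sim a b) : ∃ z : F, z ^ n = 1 ∧ a.trace = z * b.trace := by
  obtain ⟨z, u, hz, rfl⟩ := h
  refine ⟨z, hz, ?_⟩
  rw [trace_smul, trace_mul_comm, ← mul_assoc, Units.inv_mul, one_mul, smul_eq_mul]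

theorem Sim.mulVec {a b : Matrix (Fin n) (Fin n) F} (h : Sim a b) : ∃ (z : F) (u : (Matrix (Fin n) (Fin n) F)ˣ),
    z ^ n = 1 ∧ ∀ (c : F) (v : Fin n → F), b *ᵥ v = c • v →
      a *ᵥ ((u : Matrix (Fin n) (Fin n) F) *ᵥ v) = (z * c) • ((u : Matrix (Fin n) (Fin n) F) *ᵥ v) := by
  obtain ⟨z, u, hz, rfl⟩ := h
  refine ⟨z, u, hz, fun c v hv => ?_⟩
  rw [smul_mulVec, mulVec_mulVec, mul_assoc, mul_assoc, Units.inv_mul, mul_one, ← mulVec_mulVec, hv, mulVec_smul, smul_smul]

theorem unit_mulVec_eq_zero (u : (Matrix (Fin n) (Fin n) F)ˣ) {v : Fin n → F}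
    (h : (u : Matrix (Fin n) (Fin n) F) *ᵥ v = 0) : v = 0 := by
  have h1 : ((u⁻¹ : (Matrix (Fin n) (Fin n) F)ˣ) : Matrix (Fin n) (Fin n) F) *ᵥ ((u : Matrix (Fin n) (Fin n) F) *ᵥ v) = 0 := by
    rw [h, mulVec_zero]
  rwa [mulVec_mulVec, Units.inv_mul, one_mulVec] at h1

/-- a matrix without eigenvectors against one with an eigenvector -/
theorem Sim.absurd_eig {a b : Matrix (Fin n) (Fin n) F} (h : Sim a b) (ha : ∀ (c : F) (v : Fin n → F), a *ᵥ v = c • v → v = 0)
    {c : F} {v : Fin n → F} (hb : b *ᵥ v = c • v) (hv : v ≠ 0) : False := by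
  obtain ⟨z, u, hz, h1⟩ := h.mulVec
  exact hv (unit_mulVec_eq_zero u (ha _ _ (h1 c v hb)))

/-- a matrix with one dimensional eigenspaces against one with a two dimensional eigenspace -/
theorem Sim.absurd_two {a b : Matrix (Fin n) (Fin n) F} (h : Sim a b)
    (ha : ∀ c : F, ∃ i : Fin n, ∀ v : Fin n → F, a *ᵥ v = c • v → v i = 0 → v = 0)
    {c : F} {v w : Fin n → F} (hv : b *ᵥ v = c • v) (hw : b *ᵥ w = c • w)
    (hvw : ∀ s t : F, s • v + t • w = 0 → s = 0 ∧ t = 0) : False := by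
  obtain ⟨z, u, hz, h1⟩ := h.mulVec
  obtain ⟨i, hi⟩ := ha (z * c)
  set v' := (u : Matrix (Fin n) (Fin n) F) *ᵥ v with hv'
  set w' := (u : Matrix (Fin n) (Fin n) F) *ᵥ w with hw'
  have h2 := h1 c v hv
  have h3 := h1 c w hw
  rw [← hv'] at h2
  rw [← hw'] at h3
  have h4 : (w' i) • v' + (-(v' i)) • w' = 0 := by
    apply hi
    · rw [mulVec_add, mulVec_smul, mulVec_smul, h2, h3, smul_add, smul_smul, smul_smul, smul_smul, smul_smul,
        mul_comm (w' i), mul_comm (-(v' i))]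
    · simp only [Pi.add_apply, Pi.smul_apply, smul_eq_mul]
      ring
  have h5 : (u : Matrix (Fin n) (Fin n) F) *ᵥ ((w' i) • v + (-(v' i)) • w) = 0 := by
    rw [mulVec_add, mulVec_smul, mulVec_smul]
    exact h4
  obtain ⟨h6, h7⟩ := hvw _ _ (unit_mulVec_eq_zero u h5)
  have h8 : v' = 0 := hi v' h2 (neg_eq_zero.1 h7)
  have h9 : v = 0 := unit_mulVec_eq_zero u h8
  have h10 := (hvw 1 0 (by rw [h9, smul_zero, zero_smul, add_zero])).1
  exact one_ne_zero h10

/-! ### families -/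

/-- a family of pairwise non-conjugate `p`-singular elements of `PSL_n(F)` -/
structure Fam (F : Type*) [Field F] (n : ℕ) (ι : Type*) where
  f : ι → Matrix (Fin n) (Fin n) F
  det : ∀ i, (f i).det = 1
  inj : ∀ i j, Sim (f i) (f j) → i = j
  sing : ∀ i (m : ℕ) (z : F), z ≠ 0 → (f i) ^ m = z • 1 → (m : F) = 0

/-- the union of two families -/
def Fam.sum {ι κ : Type*} (A : Fam F n ι) (B : Fam F n κ) (hn : n ≠ 0) (h : ∀ i j, ¬ Sim (A.f i) (B.f j)) :
    Fam F n (ι ⊕ κ) where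
  f := Sum.elim A.f B.f
  det := by
    rintro (i | i)
    · exact A.det i
    · exact B.det i
  inj := by
    rintro (i | i) (j | j) hs
    · exact congrArg Sum.inl (A.inj i j hs)
    · exact absurd hs (h i j)
    · exact absurd (hs.symm hn) (h j i)
    · exact congrArg Sum.inr (B.inj i j hs)
  sing := by
    rintro (i | i)
    · exact A.sing i
    · exact B.sing i

/-- unipotent elements -/
def famU (F : Type*) [Field F] (n : ℕ) {ι : Type*} (S : ι → Finset ℕ) (hn : n ≠ 0) (hne : ∀ i, (S i).Nonempty)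
    (hS : ∀ i, ∀ j ∈ S i, j + 1 < n)
    (hinj : ∀ i j, (S i).card = (S j).card →
      ((S i).filter fun a => a + 1 ∈ S i).card = ((S j).filter fun a => a + 1 ∈ S j).card → i = j) : Fam F n ι where
  f i := U F n (S i)
  det i := det_U _
  inj i j h := by
    obtain ⟨h1, h2⟩ := inv_of_sim_U hn (hS i) (hS j) h
    exact hinj i j h1 h2
  sing i m z _ h := singular_U (hS i) (hne i) h

/-- the Jordan types used for `n ≥ 6` -/
def S9 : Fin 9 → Finset ℕ := ![{0}, {0, 2}, {0, 1}, {0, 2, 4}, {0, 1, 3}, {0, 1, 2}, {0, 1, 3, 4}, {0, 1, 2, 3}, {0, 1, 2, 3, 4}]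

/-- the Jordan types used for `n = 5` -/
def S6 : Fin 6 → Finset ℕ := ![{0}, {0, 2}, {0, 1}, {0, 1, 3}, {0, 1, 2}, {0, 1, 2, 3}]

/-- the Jordan types used for `n = 4` -/
def S4 : Fin 4 → Finset ℕ := ![{0}, {0, 2}, {0, 1}, {0, 1, 2}]

def famU9 (F : Type*) [Field F] (n : ℕ) (hn : 6 ≤ n) : Fam F n (Fin 9) :=
  famU F n S9 (by omega) (by decide) (fun i j hj => by
    have : ∀ i, ∀ j ∈ S9 i, j + 1 < 6 := by decide
    have := this i j hj
    omega) (by decide)

def famU6 (F : Type*) [Field F] : Fam F 5 (Fin 6) :=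
  famU F 5 S6 (by omega) (by decide) (by decide) (by decide)

def famU4 (F : Type*) [Field F] : Fam F 4 (Fin 4) :=
  famU F 4 S4 (by omega) (by decide) (by decide) (by decide)

theorem trace_U (S : Finset ℕ) : (U F n S).trace = n := by
  rw [trace]
  simp only [diag_apply, U_apply_self, Finset.sum_const, Finset.card_univ, Fintype.card_fin, nsmul_eq_mul, mul_one]

theorem isCoprime_aux {z : F} (hz : z ≠ 1) (m k : ℕ) : IsCoprime ((X - C 1 : F[X]) ^ m) ((X - C z) ^ k) :=
  (Polynomial.isCoprime_X_sub_C_of_isUnit_sub (by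
    rw [isUnit_iff_ne_zero]
    exact sub_ne_zero.2 (Ne.symm hz))).pow

/-! ### `n = 4` -/

/-- `J_2(1) ⊕ s(t)` -/
def M4 (t : F) : Matrix (Fin 4) (Fin 4) F := !![1, 1, 0, 0; 0, 1, 0, 0; 0, 0, 0, -1; 0, 0, 1, t]

theorem charpoly_M4 (t z : F) : (z • M4 t).charpoly = (X - C z) ^ 2 * (X ^ 2 - C (z * t) * X + C (z ^ 2)) := by
  rw [Matrix.charpoly, det_succ_row_zero]
  simp [charmatrix, M4, det_succ_row_zero, Fin.sum_univ_succ, submatrix, Fin.succAbove, Matrix.scalar]
  ring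

theorem det_M4 (t : F) : (M4 t).det = 1 := by
  simp [M4, det_succ_row_zero, Fin.sum_univ_succ, submatrix, Fin.succAbove]

theorem trace_M4 (t : F) : (M4 t).trace = 2 + t := by
  simp [trace, M4, Fin.sum_univ_succ]
  ring

theorem quad_monic (s d : F) : (X ^ 2 - C s * X + C d : F[X]).Monic := by
  have h : (X ^ 2 - C s * X + C d : F[X]) = X ^ 2 + (C (-s) * X + C d) := by
    rw [C_neg]
    ring
  rw [h]
  exact monic_X_pow_add (lt_of_le_of_lt degree_linear_le (by norm_num))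

theorem quad_natDegree (s d : F) : (X ^ 2 - C s * X + C d : F[X]).natDegree = 2 := by
  compute_degree!

/-- a monic quadratic divisible by a square -/
theorem quad_eq {s d z : F} (h : (X - C z : F[X]) ^ 2 ∣ X ^ 2 - C s * X + C d) : s = 2 * z ∧ d = z ^ 2 := by
  have h1 := eq_of_monic_of_dvd_of_natDegree_le ((monic_X_sub_C z).pow 2) (quad_monic s d) h (by
    rw [quad_natDegree, natDegree_pow, natDegree_X_sub_C])
  have h2 := congrArg (Polynomial.eval 0) h1
  have h4 := congrArg (Polynomial.eval 1) h1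
  simp only [eval_add, eval_sub, eval_mul, eval_pow, eval_X, eval_C] at h2 h4
  have h5 : d = z ^ 2 := by linear_combination h2
  refine ⟨?_, h5⟩
  rw [h5] at h4
  linear_combination -h4

theorem sim_M4 {t t' : F} (h : Sim (M4 t) (M4 t')) : t = t' := by
  obtain ⟨z, u, hz, hab⟩ := h
  have h1 : (M4 t).charpoly = (z • M4 t').charpoly := by
    rw [hab, ← charpoly_conj u (z • M4 t'), mul_smul_comm, smul_mul_assoc]
  by_cases hz1 : z = 1
  · subst hz1
    have h2 : Sim1 (M4 t) (M4 t') := ⟨u, by rw [hab, one_smul]⟩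
    have h3 := h2.trace_eq
    rw [trace_M4, trace_M4] at h3
    exact add_left_cancel h3
  · have h2 := charpoly_M4 t 1
    rw [one_smul] at h2
    rw [h2, charpoly_M4] at h1
    have h3 : (X - C 1 : F[X]) ^ 2 ∣ X ^ 2 - C (z * t') * X + C (z ^ 2) :=
      (isCoprime_aux hz1 2 2).dvd_of_dvd_mul_left (h1 ▸ dvd_mul_right _ _)
    have h4 : (X - C z : F[X]) ^ 2 ∣ X ^ 2 - C (1 * t) * X + C (1 ^ 2) :=
      (isCoprime_aux hz1 2 2).symm.dvd_of_dvd_mul_left (h1.symm ▸ dvd_mul_right _ _)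
    obtain ⟨h5, h6⟩ := quad_eq h3
    obtain ⟨h7, h8⟩ := quad_eq h4
    have h9 : z ≠ 0 := by
      rintro rfl
      simp at h6
    rw [one_mul] at h7
    apply mul_left_cancel₀ h9
    rw [h7, h5]
    linear_combination 2 * h6

theorem sing_M4 (t : F) {m : ℕ} {z : F} (h : (M4 t) ^ m = z • 1) : (m : F) = 0 := by
  refine cast_eq_zero_of_vec (b := 1) one_ne_zero (v := ![0, 1, 0, 0]) (w := ![1, 0, 0, 0]) ?_ ?_ ?_ h
  · ext i
    fin_cases i <;> simp [M4, mulVec, dotProduct, Fin.sum_univ_succ]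
  · ext i
    fin_cases i <;> simp [M4, mulVec, dotProduct, Fin.sum_univ_succ]
  · intro h0
    have := congrFun h0 0
    simp at this

/-- the elements `J_2(1) ⊕ s(t)`, `t ≠ 2` -/
def famM4 (F : Type*) [Field F] : Fam F 4 {t : F // t ≠ 2} where
  f t := M4 (t : F)
  det _ := det_M4 _
  inj _ _ h := Subtype.ext (sim_M4 h)
  sing _ _ _ _ h := sing_M4 _ h

theorem eval_M4 (t z : F) : (z • M4 t).charpoly.eval z = 0 := by
  rw [charpoly_M4]
  simp

theorem not_sim_U_M4 {S : Finset ℕ} {t : F} (ht : t ≠ 2) : ¬ Sim (U F 4 S) (M4 t) := by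
  intro h
  have h1 := (h.sim1_U (by omega) (eval_M4 t)).trace_eq
  rw [trace_U, trace_M4] at h1
  push_cast at h1
  exact ht (by linear_combination -h1)

/-- the ten or more elements for `n = 4` -/
def fam4 (F : Type*) [Field F] : Fam F 4 (Fin 4 ⊕ {t : F // t ≠ 2}) :=
  (famU4 F).sum (famM4 F) (by omega) fun _ j => not_sim_U_M4 j.2

/-- the eigenspaces of `M4 t` are lines -/
theorem M4_eig {t : F} (ht : t ≠ 2) (c : F) :
    ∃ i : Fin 4, ∀ v : Fin 4 → F, M4 t *ᵥ v = c • v → v i = 0 → v = 0 := by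
  by_cases hc : c = 1
  · subst hc
    refine ⟨0, fun v hv h0 => ?_⟩
    have e0 := congrFun hv 0
    have e1 := congrFun hv 1
    have e2 := congrFun hv 2
    have e3 := congrFun hv 3
    simp [M4, mulVec, dotProduct, Fin.sum_univ_succ] at e0 e1 e2 e3
    have h3 : (t - 2) * v 3 = 0 := by
      have : v 2 = - v 3 := e2.symm
      rw [this] at e3
      linear_combination e3
    have h3' : v 3 = 0 := (mul_eq_zero.1 h3).resolve_left (sub_ne_zero.2 ht)
    have h2' : v 2 = 0 := by rw [← e2, h3', neg_zero]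
    ext i
    fin_cases i
    · exact h0
    · exact e0
    · exact h2'
    · exact h3'
  · refine ⟨2, fun v hv h0 => ?_⟩
    have e0 := congrFun hv 0
    have e1 := congrFun hv 1
    have e2 := congrFun hv 2
    have e3 := congrFun hv 3
    simp [M4, mulVec, dotProduct, Fin.sum_univ_succ] at e0 e1 e2 e3
    have h1 : v 1 = 0 := by
      have : (1 - c) * v 1 = 0 := by linear_combination e1
      exact (mul_eq_zero.1 this).resolve_left (sub_ne_zero.2 (Ne.symm hc))
    have h0' : v 0 = 0 := by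
      have : (1 - c) * v 0 = 0 := by linear_combination e0 - h1
      exact (mul_eq_zero.1 this).resolve_left (sub_ne_zero.2 (Ne.symm hc))
    have h3' : v 3 = 0 := by
      rw [h0, mul_zero, neg_eq_zero] at e2
      exact e2
    ext i
    fin_cases i
    · exact h0'
    · exact h1
    · exact h0
    · exact h3'

/-- `J_2(1) ⊕ (-1, -1)` -/
def E4 (F : Type*) [Field F] : Matrix (Fin 4) (Fin 4) F := !![1, 1, 0, 0; 0, 1, 0, 0; 0, 0, -1, 0; 0, 0, 0, -1]

theorem charpoly_E4 (z : F) : (z • E4 F).charpoly = (X - C z) ^ 2 * (X + C z) ^ 2 := by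
  rw [Matrix.charpoly, det_succ_row_zero]
  simp [charmatrix, E4, det_succ_row_zero, Fin.sum_univ_succ, submatrix, Fin.succAbove, Matrix.scalar]
  ring

theorem det_E4 : (E4 F).det = 1 := by
  simp [E4, det_succ_row_zero, Fin.sum_univ_succ, submatrix, Fin.succAbove]

theorem trace_E4 : (E4 F).trace = 0 := by
  simp [trace, E4, Fin.sum_univ_succ]

theorem sing_E4 {m : ℕ} {z : F} (h : (E4 F) ^ m = z • 1) : (m : F) = 0 := by
  refine cast_eq_zero_of_vec (b := 1) one_ne_zero (v := ![0, 1, 0, 0]) (w := ![1, 0, 0, 0]) ?_ ?_ ?_ h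
  · ext i
    fin_cases i <;> simp [E4, mulVec, dotProduct, Fin.sum_univ_succ]
  · ext i
    fin_cases i <;> simp [E4, mulVec, dotProduct, Fin.sum_univ_succ]
  · intro h0
    have := congrFun h0 0
    simp at this

def famE4 (F : Type*) [Field F] : Fam F 4 Unit where
  f _ := E4 F
  det _ := det_E4
  inj _ _ _ := rfl
  sing _ _ _ _ h := sing_E4 h

theorem not_sim_U_E4 {S : Finset ℕ} (h4 : (4 : F) ≠ 0) : ¬ Sim (U F 4 S) (E4 F) := by
  intro h
  have h1 := (h.sim1_U (by omega) (fun z => by rw [charpoly_E4]; simp)).trace_eq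
  rw [trace_U, trace_E4] at h1
  push_cast at h1
  exact h4 h1

theorem not_sim_M4_E4 {t : F} (ht : t ≠ 2) : ¬ Sim (M4 t) (E4 F) := by
  intro h
  refine h.absurd_two (M4_eig ht) (c := -1) (v := ![0, 0, 1, 0]) (w := ![0, 0, 0, 1]) ?_ ?_ ?_
  · ext i
    fin_cases i <;> simp [E4, mulVec, dotProduct, Fin.sum_univ_succ]
  · ext i
    fin_cases i <;> simp [E4, mulVec, dotProduct, Fin.sum_univ_succ]
  · intro s t hst
    have h2 := congrFun hst 2
    have h3 := congrFun hst 3
    simp at h2 h3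
    exact ⟨h2, h3⟩

/-- `[[s, 1], [0, s]]`, `s` the companion matrix of `X² - t X + c` -/
def D4 (c t : F) : Matrix (Fin 4) (Fin 4) F := !![0, -c, 1, 0; 1, t, 0, 1; 0, 0, 0, -c; 0, 0, 1, t]

theorem charpoly_D4 (c t z : F) : (z • D4 c t).charpoly = (X ^ 2 - C (z * t) * X + C (z ^ 2 * c)) ^ 2 := by
  rw [Matrix.charpoly, det_succ_row_zero]
  simp [charmatrix, D4, det_succ_row_zero, Fin.sum_univ_succ, submatrix, Fin.succAbove, Matrix.scalar]
  ring

theorem det_D4 (c t : F) : (D4 c t).det = c ^ 2 := by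
  simp [D4, det_succ_row_zero, Fin.sum_univ_succ, submatrix, Fin.succAbove]
  ring

theorem trace_D4 (c t : F) : (D4 c t).trace = 2 * t := by
  simp [trace, D4, Fin.sum_univ_succ]
  ring

theorem D4_eig {c t : F} (hr : ∀ x : F, x ^ 2 - t * x + c ≠ 0) (a : F) (v : Fin 4 → F) (h : D4 c t *ᵥ v = a • v) : v = 0 := by
  have e0 := congrFun h 0
  have e1 := congrFun h 1
  have e2 := congrFun h 2
  have e3 := congrFun h 3
  simp [D4, mulVec, dotProduct, Fin.sum_univ_succ] at e0 e1 e2 e3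
  have h3 : v 3 = 0 := by
    have : (a ^ 2 - t * a + c) * v 3 = 0 := by linear_combination -e2 - a * e3
    exact (mul_eq_zero.1 this).resolve_left (hr a)
  have h2 : v 2 = 0 := by
    rw [h3] at e3
    linear_combination e3
  have h1 : v 1 = 0 := by
    have : (a ^ 2 - t * a + c) * v 1 = 0 := by linear_combination -e0 - a * e1 + h2 + a * h3
    exact (mul_eq_zero.1 this).resolve_left (hr a)
  have h0 : v 0 = 0 := by
    linear_combination e1 - t * h1 - h3 + a * h1
  ext i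
  fin_cases i
  · exact h0
  · exact h1
  · exact h2
  · exact h3

/-- the `p`-singularity of `S + N` -/
theorem sing_add {A : Type*} [Ring A] [Algebra F A] {S N E : A} (h1 : S * N = N * S) (h2 : N * N = 0) (h3 : E * S = S * E)
    (h4 : E * N = N) (h5 : N * E = 0) (hN : N ≠ 0) {m : ℕ} {z : F} (hz : z ≠ 0) (h : (S + N) ^ m = z • 1) : (m : F) = 0 := by
  have h6 : ∀ k : ℕ, S * (S + N) ^ k = S ^ (k + 1) + (k : F) • (S ^ k * N) := by
    intro k
    induction k with
    | zero => simp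
    | succ k ih =>
      rw [pow_succ (S + N), ← mul_assoc, ih, add_mul, mul_add, mul_add, smul_mul_assoc, smul_mul_assoc, mul_assoc (S ^ k),
        mul_assoc (S ^ k), h2, ← h1, ← mul_assoc (S ^ k), ← pow_succ, ← pow_succ, mul_zero, smul_zero, add_zero]
      push_cast
      rw [add_smul, one_smul, add_assoc]
      congr 1
      rw [add_comm]
  have h7 : ∀ k : ℕ, (S + N) ^ k * N = S ^ k * N := by
    intro k
    induction k with
    | zero => simp
    | succ k ih =>
      rw [pow_succ, mul_assoc, add_mul, h2, add_zero, h1, ← mul_assoc, ih, mul_assoc, ← h1, ← mul_assoc, ← pow_succ]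
  have h8 : ∀ k : ℕ, E * S ^ k = S ^ k * E := fun k => ((Commute.pow_right (show Commute E S from h3) k)).eq
  have h9 := h6 m
  rw [h, mul_smul_comm, mul_one] at h9
  have h10 : (m : F) • (S ^ m * N) = 0 := by
    have e1 : E * (z • S) = (z • S) * E := by rw [mul_smul_comm, h3, smul_mul_assoc]
    rw [h9, mul_add, add_mul, h8, mul_smul_comm, ← mul_assoc, h8, mul_assoc (S ^ m) E N, h4, smul_mul_assoc,
      mul_assoc (S ^ m) N E, h5, mul_zero, smul_zero, add_zero] at e1
    exact left_eq_add.1 e1.symm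
  have h11 := h7 m
  rw [h, smul_mul_assoc, one_mul] at h11
  rw [← h11, smul_smul, smul_eq_zero] at h10
  rcases h10 with h10 | h10
  · exact (mul_eq_zero.1 h10).resolve_right hz
  · exact absurd h10 hN

theorem sing_D4 {c t : F} {m : ℕ} {z : F} (hz : z ≠ 0) (h : (D4 c t) ^ m = z • 1) : (m : F) = 0 := by
  let S : Matrix (Fin 4) (Fin 4) F := !![0, -c, 0, 0; 1, t, 0, 0; 0, 0, 0, -c; 0, 0, 1, t]
  let N : Matrix (Fin 4) (Fin 4) F := !![0, 0, 1, 0; 0, 0, 0, 1; 0, 0, 0, 0; 0, 0, 0, 0]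
  let E : Matrix (Fin 4) (Fin 4) F := !![1, 0, 0, 0; 0, 1, 0, 0; 0, 0, 0, 0; 0, 0, 0, 0]
  have hD : D4 c t = S + N := by
    ext i j
    fin_cases i <;> fin_cases j <;> simp [D4, S, N]
  rw [hD] at h
  refine sing_add (S := S) (N := N) (E := E) ?_ ?_ ?_ ?_ ?_ ?_ hz h
  · ext i j
    fin_cases i <;> fin_cases j <;> simp [S, N, mul_apply, Fin.sum_univ_succ]
  · ext i j
    fin_cases i <;> fin_cases j <;> simp [N, mul_apply, Fin.sum_univ_succ]
  · ext i j
    fin_cases i <;> fin_cases j <;> simp [S, E, mul_apply, Fin.sum_univ_succ]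
  · ext i j
    fin_cases i <;> fin_cases j <;> simp [E, N, mul_apply, Fin.sum_univ_succ]
  · ext i j
    fin_cases i <;> fin_cases j <;> simp [E, N, mul_apply, Fin.sum_univ_succ]
  · intro h0
    have := congrFun (congrFun h0 0) 2
    simp [N] at this

/-- `e_0` is an eigenvector -/
theorem D4_not_sim {c t : F} (hr : ∀ x : F, x ^ 2 - t * x + c ≠ 0) {b : Matrix (Fin 4) (Fin 4) F}
    (hb : b *ᵥ ![1, 0, 0, 0] = (1 : F) • ![1, 0, 0, 0]) : ¬ Sim b (D4 c t) := by
  intro h
  refine (h.symm (by omega)).absurd_eig (D4_eig hr) hb ?_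
  intro h0
  have := congrFun h0 0
  simp at this

end Cfsg.Agent.H206.ZPsl
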