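import Cfsg.Agent.H206.ZPslM
import Cfsg.Agent.H504.ZerosLie
import Cfsg.Agent.S0249

/-!
# Row `PSL_n(q)`, `n ≥ 4`, of S4895 (task 800)

* `big_psl` : `PSL_n(F)` is `Big` for `n ≥ 4`, `(n, q) ≠ (4, 2)`: nine non-conjugate `p`-singular elements.
-/

set_option autoImplicit false

namespace Cfsg.Agent.H206.ZPsl

open Matrix Polynomial

section five

variable {F : Type*} [Field F]

/-- `J_3(1) ⊕ s(t)` (`c = 1`), `J_2(1) ⊕ 1 ⊕ s(t)` (`c = 0`) -/
def M5 (c t : F) : Matrix (Fin 5) (Fin 5) F := !![1, 1, 0, 0, 0; 0, 1, c, 0, 0; 0, 0, 1, 0, 0; 0, 0, 0, 0, -1; 0, 0, 0, 1, t]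

theorem charpoly_M5 (c t z : F) : (z • M5 c t).charpoly = (X - C z) ^ 3 * (X ^ 2 - C (z * t) * X + C (z ^ 2)) := by
  rw [Matrix.charpoly, det_succ_row_zero]
  simp [charmatrix, M5, det_succ_row_zero, Fin.sum_univ_succ, submatrix, Fin.succAbove, Matrix.scalar]
  ring

theorem det_M5 (c t : F) : (M5 c t).det = 1 := by
  simp [M5, det_succ_row_zero, Fin.sum_univ_succ, submatrix, Fin.succAbove]

theorem trace_M5 (c t : F) : (M5 c t).trace = 3 + t := by
  simp [trace, M5, Fin.sum_univ_succ]
  ring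

theorem sing_M5 (c t : F) {m : ℕ} {z : F} (h : (M5 c t) ^ m = z • 1) : (m : F) = 0 := by
  refine cast_eq_zero_of_vec (b := 1) one_ne_zero (v := ![0, 1, 0, 0, 0]) (w := ![1, 0, 0, 0, 0]) ?_ ?_ ?_ h
  · ext i
    fin_cases i <;> simp [M5, mulVec, dotProduct, Fin.sum_univ_succ]
  · ext i
    fin_cases i <;> simp [M5, mulVec, dotProduct, Fin.sum_univ_succ]
  · intro h0
    have := congrFun h0 0
    simp at this

theorem sim1_M5 {c c' t t' : F} (h : Sim (M5 c t) (M5 c' t')) : Sim1 (M5 c t) (M5 c' t') := by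
  refine h.sim1_of_eval (fun z _ _ h1 => ?_) (by omega)
  by_contra hz1
  have h2 := charpoly_M5 c t 1
  rw [one_smul] at h2
  rw [h2, charpoly_M5] at h1
  have h3 : (X - C 1 : F[X]) ^ 3 ∣ X ^ 2 - C (z * t') * X + C (z ^ 2) :=
    (isCoprime_aux hz1 3 3).dvd_of_dvd_mul_left (h1 ▸ dvd_mul_right _ _)
  have h4 := natDegree_le_of_dvd h3 (quad_monic _ _).ne_zero
  rw [quad_natDegree, natDegree_pow, natDegree_X_sub_C] at h4
  omega

theorem eval_M5 (c t z : F) : (z • M5 c t).charpoly.eval z = 0 := by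
  rw [charpoly_M5]
  simp

theorem not_sim_U_M5 {S : Finset ℕ} {c t : F} (ht : t ≠ 2) : ¬ Sim (U F 5 S) (M5 c t) := by
  intro h
  have h1 := (h.sim1_U (by omega) (eval_M5 c t)).trace_eq
  rw [trace_U, trace_M5] at h1
  push_cast at h1
  exact ht (by linear_combination -h1)

/-- the eigenspaces of `M5 1 t` are lines -/
theorem M5_eig {t : F} (ht : t ≠ 2) (c : F) :
    ∃ i : Fin 5, ∀ v : Fin 5 → F, M5 1 t *ᵥ v = c • v → v i = 0 → v = 0 := by
  by_cases hc : c = 1
  · subst hc
    refine ⟨0, fun v hv h0 => ?_⟩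
    have e0 := congrFun hv 0
    have e1 := congrFun hv 1
    have e3 := congrFun hv 3
    have e4 := congrFun hv 4
    simp [M5, mulVec, dotProduct, Fin.sum_univ_succ] at e0 e1 e3 e4
    have h3 : (t - 2) * v 4 = 0 := by
      have : v 3 = - v 4 := e3.symm
      rw [this] at e4
      linear_combination e4
    have h4' : v 4 = 0 := (mul_eq_zero.1 h3).resolve_left (sub_ne_zero.2 ht)
    have h3' : v 3 = 0 := by rw [← e3, h4', neg_zero]
    ext i
    fin_cases i
    · exact h0
    · exact e0
    · exact e1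
    · exact h3'
    · exact h4'
  · refine ⟨3, fun v hv h0 => ?_⟩
    have e0 := congrFun hv 0
    have e1 := congrFun hv 1
    have e2 := congrFun hv 2
    have e3 := congrFun hv 3
    simp [M5, mulVec, dotProduct, Fin.sum_univ_succ] at e0 e1 e2 e3
    have hne : (1 - c) ≠ 0 := sub_ne_zero.2 (Ne.symm hc)
    have h2 : v 2 = 0 := by
      have : (1 - c) * v 2 = 0 := by linear_combination e2
      exact (mul_eq_zero.1 this).resolve_left hne
    have h1 : v 1 = 0 := by
      have : (1 - c) * v 1 = 0 := by linear_combination e1 - h2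
      exact (mul_eq_zero.1 this).resolve_left hne
    have h0' : v 0 = 0 := by
      have : (1 - c) * v 0 = 0 := by linear_combination e0 - h1
      exact (mul_eq_zero.1 this).resolve_left hne
    have h4' : v 4 = 0 := by
      rw [h0, mul_zero, neg_eq_zero] at e3
      exact e3
    ext i
    fin_cases i
    · exact h0'
    · exact h1
    · exact h2
    · exact h0
    · exact h4'

theorem not_sim_M5 {t t' : F} (ht : t ≠ 2) : ¬ Sim (M5 1 t) (M5 0 t') := by
  intro h
  refine h.absurd_two (M5_eig ht) (c := 1) (v := ![1, 0, 0, 0, 0]) (w := ![0, 0, 1, 0, 0]) ?_ ?_ ?_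
  · ext i
    fin_cases i <;> simp [M5, mulVec, dotProduct, Fin.sum_univ_succ]
  · ext i
    fin_cases i <;> simp [M5, mulVec, dotProduct, Fin.sum_univ_succ]
  · intro s t hst
    have h2 := congrFun hst 0
    have h3 := congrFun hst 2
    simp at h2 h3
    exact ⟨h2, h3⟩

def famM5 (F : Type*) [Field F] (c : F) : Fam F 5 {t : F // t ≠ 2} where
  f t := M5 c (t : F)
  det _ := det_M5 _ _
  inj _ _ h := by
    have h1 := (sim1_M5 h).trace_eq
    rw [trace_M5, trace_M5] at h1
    exact Subtype.ext (add_left_cancel h1)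
  sing _ _ _ _ h := sing_M5 _ _ h

/-- the `6 + 2 (q - 1)` elements for `n = 5` -/
def fam5 (F : Type*) [Field F] : Fam F 5 (Fin 6 ⊕ ({t : F // t ≠ 2} ⊕ {t : F // t ≠ 2})) :=
  (famU6 F).sum ((famM5 F 1).sum (famM5 F 0) (by omega) fun i _ => not_sim_M5 i.2) (by omega) (by
    rintro i (j | j)
    · exact not_sim_U_M5 j.2
    · exact not_sim_U_M5 j.2)

/-- `J_2(1) ⊕ C(X³ - X - 1)` -/
def G5 (F : Type*) [Field F] : Matrix (Fin 5) (Fin 5) F :=
  !![1, 1, 0, 0, 0; 0, 1, 0, 0, 0; 0, 0, 0, 0, 1; 0, 0, 1, 0, 1; 0, 0, 0, 1, 0]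

theorem charpoly_G5 : (G5 F).charpoly = (X - C 1) ^ 2 * (X ^ 3 - X - 1) := by
  rw [Matrix.charpoly, det_succ_row_zero]
  simp [charmatrix, G5, det_succ_row_zero, Fin.sum_univ_succ, submatrix, Fin.succAbove, Matrix.scalar]
  ring

theorem det_G5 : (G5 F).det = 1 := by
  simp [G5, det_succ_row_zero, Fin.sum_univ_succ, submatrix, Fin.succAbove]

theorem trace_G5 : (G5 F).trace = 2 := by
  simp [trace, G5, Fin.sum_univ_succ]
  ring

theorem sing_G5 {m : ℕ} {z : F} (h : (G5 F) ^ m = z • 1) : (m : F) = 0 := by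
  refine cast_eq_zero_of_vec (b := 1) one_ne_zero (v := ![0, 1, 0, 0, 0]) (w := ![1, 0, 0, 0, 0]) ?_ ?_ ?_ h
  · ext i
    fin_cases i <;> simp [G5, mulVec, dotProduct, Fin.sum_univ_succ]
  · ext i
    fin_cases i <;> simp [G5, mulVec, dotProduct, Fin.sum_univ_succ]
  · intro h0
    have := congrFun h0 0
    simp at this

def famG5 (F : Type*) [Field F] : Fam F 5 Unit where
  f _ := G5 F
  det _ := det_G5
  inj _ _ _ := rfl
  sing _ _ _ _ h := sing_G5 h

/-- over the field of two elements -/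
theorem Sim.sim1_of_two {n : ℕ} (hn : n ≠ 0) (h2 : ∀ z : F, z ≠ 0 → z = 1) {a b : Matrix (Fin n) (Fin n) F} (h : Sim a b) :
    Sim1 a b :=
  h.sim1_of_eval (fun z hz _ _ => h2 z hz) hn

theorem not_sim_U_G5 {S : Finset ℕ} (h2 : ∀ z : F, z ≠ 0 → z = 1) : ¬ Sim (U F 5 S) (G5 F) := by
  intro h
  have h1 := (h.sim1_of_two (by omega) h2).trace_eq
  rw [trace_U, trace_G5] at h1
  push_cast at h1
  have h3 : (3 : F) = 0 := by linear_combination h1
  by_cases h4 : (2 : F) = 0
  · exact one_ne_zero (α := F) (by linear_combination h3 - h4)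
  · have := h2 2 h4
    have h5 : (1 : F) = 0 := by linear_combination this
    exact one_ne_zero h5

theorem not_sim_M5_G5 {c t : F} (h2 : ∀ z : F, z ≠ 0 → z = 1) : ¬ Sim (M5 c t) (G5 F) := by
  intro h
  have h1 := (h.sim1_of_two (by omega) h2).charpoly_eq
  have h3 := charpoly_M5 c t 1
  rw [one_smul] at h3
  rw [h3, charpoly_G5, pow_succ, mul_assoc] at h1
  have h4 := mul_left_cancel₀ (pow_ne_zero 2 (X_sub_C_ne_zero (1 : F))) h1
  have h5 := congrArg (Polynomial.eval 1) h4
  simp at h5

end five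

/-! ### the groups -/

section groups

open Cfsg Cfsg.Agent.H504.Zeros

variable {F : Type} [Field F] [Fintype F]

open Classical in
theorem big_of_fam {n : ℕ} (hn : 3 ≤ n) {ι : Type} [Fintype ι] (A : Fam F n ι) (hc : 9 ≤ Fintype.card ι) :
    Big (Matrix.ProjectiveSpecialLinearGroup (Fin n) F) := by
  obtain ⟨p, hp⟩ := CharP.exists F
  have hpp : p.Prime := (CharP.char_is_prime_or_zero F p).resolve_right (CharP.char_ne_zero_of_finite F p)
  have hs : IsSimpleGroup (Matrix.ProjectiveSpecialLinearGroup (Fin n) F) := Cfsg.Agent.S0249.result n hn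
  have hlie : IsLieTypeChar p (Matrix.ProjectiveSpecialLinearGroup (Fin n) F) :=
    Or.inl ⟨F, inferInstance, inferInstance, hp, n, by omega, fun h => by omega, ⟨MulEquiv.refl _⟩⟩
  let g : ι → Matrix.ProjectiveSpecialLinearGroup (Fin n) F := fun i => mk ⟨A.f i, A.det i⟩
  have hg : ∀ i j, IsConj (g i) (g j) → i = j := fun i j h => A.inj i j (sim_of_isConj h)
  refine big_of_lie hpp hlie (Finset.univ.image g) ?_ ?_ ?_
  · intro a ha b hb hab
    obtain ⟨i, -, rfl⟩ := Finset.mem_image.1 ha
    obtain ⟨j, -, rfl⟩ := Finset.mem_image.1 hb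
    rw [hg i j hab]
  · intro a ha
    obtain ⟨i, -, rfl⟩ := Finset.mem_image.1 ha
    exact dvd_orderOf fun m z hz h => A.sing i m z hz h
  · rw [Finset.card_image_of_injective _ (fun i j h => hg i j (by rw [h]))]
    exact hc

theorem card_ne_two [Fintype {t : F // t ≠ 2}] : Fintype.card {t : F // t ≠ 2} = Fintype.card F - 1 := by
  classical
  rw [Fintype.card_subtype_compl, Fintype.card_subtype_eq]

omit [Fintype F] in
theorem U_e0 (S : Finset ℕ) : U F 4 S *ᵥ ![1, 0, 0, 0] = (1 : F) • ![1, 0, 0, 0] := by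
  ext i
  have h0 : (U F 4 S *ᵥ ![1, 0, 0, 0]) i = U F 4 S i 0 := by
    simp [mulVec, dotProduct, Fin.sum_univ_succ]
  rw [h0]
  fin_cases i <;> simp [U, P]

theorem fam4_e0 (i : Fin 4 ⊕ {t : F // t ≠ 2}) : (fam4 F).f i *ᵥ ![1, 0, 0, 0] = (1 : F) • ![1, 0, 0, 0] := by
  rcases i with i | i
  · exact U_e0 _
  · change M4 (i : F) *ᵥ _ = _
    ext i
    fin_cases i <;> simp [M4, mulVec, dotProduct, Fin.sum_univ_succ]

/-- adding a family of elements without eigenvectors -/
def famD {κ : Type} (c t : κ → F) (hc : ∀ i, c i ^ 2 = 1) (hr : ∀ i, ∀ x : F, x ^ 2 - t i * x + c i ≠ 0)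
    (hinj : ∀ i j, Sim (D4 (c i) (t i)) (D4 (c j) (t j)) → i = j) : Fam F 4 κ where
  f i := D4 (c i) (t i)
  det i := by rw [det_D4, hc]
  inj := hinj
  sing _ _ _ hz h := sing_D4 hz h

theorem two_eq_zero_of_card_four (hF : Fintype.card F = 4) : (2 : F) = 0 := by
  have h := FiniteField.cast_card_eq_zero F
  rw [hF] at h
  push_cast at h
  have h1 : (2 : F) ^ 2 = 0 := by linear_combination h
  exact pow_eq_zero_iff two_ne_zero |>.1 h1

theorem big_four_three (hF : Fintype.card F = 3) : Big (Matrix.ProjectiveSpecialLinearGroup (Fin 4) F) := by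
  classical
  have h3 : (3 : F) = 0 := by
    have h := FiniteField.cast_card_eq_zero F
    rw [hF] at h
    exact_mod_cast h
  have h4 : (4 : F) ≠ 0 := fun h => one_ne_zero (α := F) (by linear_combination h - h3)
  have h2 : (2 : F) ≠ 0 := fun h => one_ne_zero (α := F) (by linear_combination h3 - h)
  have hpow : ∀ x : F, x ^ 3 = x := fun x => by
    have := FiniteField.pow_card x
    rwa [hF] at this
  have hr1 : ∀ x : F, x ^ 2 - 0 * x + 1 ≠ 0 := by
    intro x hx
    have e1 : x = 0 := by linear_combination x * h3 - x * hx + hpow x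
    rw [e1] at hx
    exact one_ne_zero (α := F) (by linear_combination hx)
  have hr2 : ∀ x : F, x ^ 2 - 1 * x + (-1) ≠ 0 := by
    intro x hx
    have e1 : x = -1 := by linear_combination hpow x - (x + 1) * hx
    rw [e1] at hx
    exact one_ne_zero (α := F) (by linear_combination hx)
  have hn12 : ¬ Sim (D4 (1 : F) 0) (D4 (-1 : F) 1) := by
    intro h
    obtain ⟨z, hz, ht⟩ := h.trace_eq
    rw [trace_D4, trace_D4, mul_zero, mul_one] at ht
    rcases mul_eq_zero.1 ht.symm with h5 | h5
    · exact Sim.ne_zero (by omega) hz h5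
    · exact h2 h5
  let B : Fam F 4 Bool := famD (fun b => if b then 1 else -1) (fun b => if b then 0 else 1)
    (by rintro (_ | _) <;> simp) (by
      rintro (_ | _)
      · simpa using hr2
      · simpa using hr1) (by
      rintro (_ | _) (_ | _) h
      · rfl
      · exact absurd (Sim.symm (by omega) h) (by simpa using hn12)
      · exact absurd h (by simpa using hn12)
      · rfl)
  have hrB : ∀ b : Bool, ∀ x : F, x ^ 2 - (if b then (0 : F) else 1) * x + (if b then (1 : F) else -1) ≠ 0 := by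
    rintro (_ | _)
    · simpa using hr2
    · simpa using hr1
  let A : Fam F 4 ((Fin 4 ⊕ {t : F // t ≠ 2}) ⊕ Unit) := (fam4 F).sum (famE4 F) (by omega) (by
    rintro (i | i) _
    · exact not_sim_U_E4 h4
    · exact not_sim_M4_E4 i.2)
  refine big_of_fam (by omega) (A.sum B (by omega) ?_) ?_
  · rintro (i | i) b
    · exact D4_not_sim (hrB b) (fam4_e0 i)
    · refine D4_not_sim (hrB b) ?_
      change E4 F *ᵥ _ = _
      ext i
      fin_cases i <;> simp [E4, mulVec, dotProduct, Fin.sum_univ_succ]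
  · rw [Fintype.card_sum, Fintype.card_sum, Fintype.card_sum, card_ne_two, hF]
    simp

theorem big_four_four (hF : Fintype.card F = 4) : Big (Matrix.ProjectiveSpecialLinearGroup (Fin 4) F) := by
  classical
  have h2 := two_eq_zero_of_card_four hF
  have hpow : ∀ x : F, x ^ 4 = x := fun x => by
    have := FiniteField.pow_card x
    rwa [hF] at this
  obtain ⟨w, hw⟩ : ∃ w : F, w ^ 2 + w + 1 = 0 := by
    by_contra hcon
    push Not at hcon
    have h5 : ∀ x : F, x = 0 ∨ x = 1 := by
      intro x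
      by_contra hx
      push Not at hx
      apply hcon x
      have h6 : x * ((x - 1) * (x ^ 2 + x + 1)) = 0 := by linear_combination hpow x
      rcases mul_eq_zero.1 h6 with h7 | h7
      · exact absurd h7 hx.1
      · exact (mul_eq_zero.1 h7).resolve_left (sub_ne_zero.2 hx.2)
    have h6 : Fintype.card F ≤ 2 := by
      rw [← Finset.card_univ]
      refine (Finset.card_le_card (t := {0, 1}) fun x _ => ?_).trans Finset.card_le_two
      rcases h5 x with h7 | h7 <;> simp [h7]
    omega
  have hr : ∀ t : F, t ^ 2 + t + 1 = 0 → ∀ x : F, x ^ 2 - t * x + 1 ≠ 0 := by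
    intro t ht x hx
    -- `x ^ 4 = x + t ^ 2 + 1`
    have h5 : t ^ 3 = 1 := by linear_combination (t - 1) * ht
    have h6 : t ^ 2 + 1 = 0 := by
      have e2 : x ^ 2 = t * x + 1 := by linear_combination hx - h2
      have e4 : x ^ 4 = x + t ^ 2 + 1 := by
        have : x ^ 4 = (t * x + 1) ^ 2 := by rw [← e2]; ring
        rw [this]
        linear_combination t ^ 2 * e2 + x * h5 + t * x * h2
      rw [hpow x] at e4
      linear_combination -e4
    have h7 : t = 0 := by linear_combination ht - h6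
    rw [h7] at h6
    exact one_ne_zero (α := F) (by linear_combination h6)
  have hsim : ∀ t t' : F, Sim (D4 1 t) (D4 1 t') → t = t' := by
    intro t t' h
    obtain ⟨z, hz, h5⟩ := h.charpoly_eq
    rw [hpow z] at hz
    subst hz
    have h6 := charpoly_D4 1 t 1
    rw [one_smul] at h6
    rw [h6, charpoly_D4] at h5
    have h7 := congrArg (Polynomial.eval 1) h5
    simp at h7
    have h8 : (t - t') ^ 2 = 0 := by linear_combination h7 + (2 * (t - t') + t' ^ 2 - t * t') * h2
    exact sub_eq_zero.1 (pow_eq_zero_iff two_ne_zero |>.1 h8)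
  have hw' : (w + 1) ^ 2 + (w + 1) + 1 = 0 := by linear_combination hw + (w + 1) * h2
  let tt : Bool → F := fun b => if b then w else w + 1
  have htt : ∀ b, tt b ^ 2 + tt b + 1 = 0 := by
    rintro (_ | _)
    · simpa [tt] using hw'
    · simpa [tt] using hw
  let B : Fam F 4 Bool := famD (fun _ => 1) tt (fun _ => one_pow 2) (fun b => hr _ (htt b)) (by
    intro i j h
    have h5 := hsim _ _ h
    rcases i with _ | _ <;> rcases j with _ | _ <;> simp [tt] at h5 ⊢)
  refine big_of_fam (by omega) ((fam4 F).sum B (by omega) ?_) ?_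
  · intro i b
    exact D4_not_sim (hr _ (htt b)) (fam4_e0 i)
  · rw [Fintype.card_sum, Fintype.card_sum, card_ne_two, hF]
    simp

theorem big_four_five (hF : Fintype.card F = 5) : Big (Matrix.ProjectiveSpecialLinearGroup (Fin 4) F) := by
  classical
  have h5 : (5 : F) = 0 := by
    have h := FiniteField.cast_card_eq_zero F
    rw [hF] at h
    exact_mod_cast h
  have hpow : ∀ x : F, x ^ 5 = x := fun x => by
    have := FiniteField.pow_card x
    rwa [hF] at this
  have hr : ∀ x : F, x ^ 2 - 1 * x + 1 ≠ 0 := by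
    intro x hx
    have h3 : x ^ 3 = -1 := by linear_combination (x + 1) * hx
    have h6 : x * (x + 1) = 0 := by linear_combination -hpow x + x ^ 2 * h3
    rcases mul_eq_zero.1 h6 with h7 | h7
    · rw [h7] at hx
      exact one_ne_zero (α := F) (by linear_combination hx)
    · have h8 : x = -1 := by linear_combination h7
      rw [h8] at hx
      exact one_ne_zero (α := F) (by linear_combination 2 * hx - h5)
  let B : Fam F 4 Unit := famD (fun _ => 1) (fun _ => 1) (fun _ => one_pow 2) (fun _ => hr) (fun _ _ _ => rfl)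
  refine big_of_fam (by omega) ((fam4 F).sum B (by omega) ?_) ?_
  · intro i b
    exact D4_not_sim hr (fam4_e0 i)
  · rw [Fintype.card_sum, Fintype.card_sum, card_ne_two, hF]
    simp

theorem big_four (hF : 3 ≤ Fintype.card F) : Big (Matrix.ProjectiveSpecialLinearGroup (Fin 4) F) := by
  classical
  rcases (by omega : Fintype.card F = 3 ∨ Fintype.card F = 4 ∨ Fintype.card F = 5 ∨ 6 ≤ Fintype.card F) with h | h | h | h
  · exact big_four_three h
  · exact big_four_four h
  · exact big_four_five h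
  · refine big_of_fam (by omega) (fam4 F) ?_
    rw [Fintype.card_sum, card_ne_two, Fintype.card_fin]
    omega

theorem big_five : Big (Matrix.ProjectiveSpecialLinearGroup (Fin 5) F) := by
  classical
  by_cases hF : 3 ≤ Fintype.card F
  · refine big_of_fam (by omega) (fam5 F) ?_
    rw [Fintype.card_sum, Fintype.card_sum, card_ne_two, Fintype.card_fin]
    omega
  · have h1 : 1 < Fintype.card F := Fintype.one_lt_card
    have hF2 : Fintype.card F = 2 := by omega
    have h2 : ∀ z : F, z ≠ 0 → z = 1 := by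
      intro z hz
      have := FiniteField.pow_card_sub_one_eq_one z hz
      rwa [hF2, show 2 - 1 = 1 by rfl, pow_one] at this
    refine big_of_fam (by omega) ((fam5 F).sum (famG5 F) (by omega) ?_) ?_
    · rintro (i | i | i) _
      · exact not_sim_U_G5 h2
      · exact not_sim_M5_G5 h2
      · exact not_sim_M5_G5 h2
    · rw [Fintype.card_sum, Fintype.card_sum, Fintype.card_sum, card_ne_two, hF2]
      simp

/-- **Row `PSL_n(q)`, `n ≥ 4`.** -/
theorem big_psl {F : Type} [Field F] [Fintype F] {n : ℕ} (hn : 4 ≤ n) (h : n = 4 → 3 ≤ Fintype.card F) :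
    Cfsg.Agent.H504.Zeros.Big (Matrix.ProjectiveSpecialLinearGroup (Fin n) F) := by
  rcases (by omega : n = 4 ∨ n = 5 ∨ 6 ≤ n) with h4 | h5 | h6
  · subst h4
    exact big_four (h rfl)
  · subst h5
    exact big_five
  · exact big_of_fam (by omega) (famU9 F n h6) (by rw [Fintype.card_fin])

end groups

end Cfsg.Agent.H206.ZPsl
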